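import Cfsg.Agent.H955.L34.Gen

/-!
# S5917, D2: the sum over the unitary group on the vectors fixed by `E` (helper280)
-/

set_option autoImplicit false
set_option linter.unusedSectionVars false

namespace Cfsg.Agent.H280.L34

open Module
open Cfsg.Agent.H904.L34 (VE mem_VE av av_apply av_mem odd_smul)

section gen

variable {G : Type*} [Group G] {i j : G}

theorem i_pow_four (h4 : i * (i * (i * i)) = 1) : i ^ 4 = 1 := by
  rw [← h4]
  simp only [pow_succ, pow_zero, one_mul, mul_assoc]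

theorem ij_eq (h4 : i * (i * (i * i)) = 1) (hjj : j * j = i * i) (hji : j * (i * j) = i) : i * j = j * i ^ 3 := by
  have h1 : j * (j * (i * i)) = 1 := by
    rw [← mul_assoc, hjj, ← h4]
    simp only [mul_assoc]
  have h2 : i * j = j⁻¹ * i := by rw [eq_inv_mul_iff_mul_eq, hji]
  rw [h2, inv_eq_of_mul_eq_one_right h1]
  simp only [pow_succ, pow_zero, one_mul, mul_assoc]

theorem i_pow_j (h4 : i * (i * (i * i)) = 1) (hjj : j * j = i * i) (hji : j * (i * j) = i) (a : ℕ) :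
    i ^ a * j = j * i ^ (3 * a) := by
  induction a with
  | zero => simp
  | succ a ih =>
    rw [pow_succ, mul_assoc, ij_eq h4 hjj hji, ← mul_assoc, ih, mul_assoc, ← pow_add]
    rfl

/-- the elements `j^b i^a` -/
def Qs (i j : G) (g : G) : Prop := ∃ b a : ℕ, g = j ^ b * i ^ a

theorem Qs.mul (h4 : i * (i * (i * i)) = 1) (hjj : j * j = i * i) (hji : j * (i * j) = i) {g h : G} (hg : Qs i j g)
    (hh : Qs i j h) : Qs i j (g * h) := by
  obtain ⟨b, a, rfl⟩ := hg
  obtain ⟨b', a', rfl⟩ := hh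
  have key : ∀ (b' a : ℕ), ∃ c, i ^ a * j ^ b' = j ^ b' * i ^ c := by
    intro b'
    induction b' with
    | zero => exact fun a => ⟨a, by simp⟩
    | succ b' ih =>
      intro a
      obtain ⟨c, hc⟩ := ih a
      refine ⟨3 * c, ?_⟩
      rw [pow_succ, ← mul_assoc, hc, mul_assoc, i_pow_j h4 hjj hji, ← mul_assoc]
  obtain ⟨c, hc⟩ := key b' a
  refine ⟨b + b', c + a', ?_⟩
  rw [pow_add, pow_add, mul_assoc, ← mul_assoc (i ^ a), hc]
  simp only [mul_assoc]

theorem Qs.red (hjj : j * j = i * i) {g : G} (hg : Qs i j g) : ∃ a : ℕ, g = i ^ a ∨ g = j * i ^ a := by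
  obtain ⟨b, a, rfl⟩ := hg
  induction b with
  | zero => exact ⟨a, Or.inl (by simp)⟩
  | succ b ih =>
    obtain ⟨c, hc | hc⟩ := ih
    · exact ⟨c, Or.inr (by rw [pow_succ', mul_assoc, hc])⟩
    · exact ⟨c + 2, Or.inl (by rw [pow_succ', mul_assoc, hc, ← mul_assoc, hjj, ← pow_two, ← pow_add, add_comm])⟩

theorem Qs.pow_four (h4 : i * (i * (i * i)) = 1) (hjj : j * j = i * i) (hji : j * (i * j) = i) {g : G}
    (hg : Qs i j g) : g ^ 4 = 1 := by
  have h44 := i_pow_four h4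
  obtain ⟨a, rfl | rfl⟩ := hg.red hjj
  · rw [← pow_mul, mul_comm, pow_mul, h44, one_pow]
  · have h1 : (j * i ^ a) * (j * i ^ a) = i * i := by
      calc (j * i ^ a) * (j * i ^ a) = j * (i ^ a * j) * i ^ a := by simp only [mul_assoc]
        _ = j * j * (i ^ (3 * a) * i ^ a) := by rw [i_pow_j h4 hjj hji]; simp only [mul_assoc]
        _ = i * i := by
          rw [← pow_add, show 3 * a + a = 4 * a by ring, pow_mul, h44, one_pow, mul_one, hjj]
    have h2 : (j * i ^ a) ^ 4 = ((j * i ^ a) * (j * i ^ a)) * ((j * i ^ a) * (j * i ^ a)) := by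
      simp only [pow_succ, pow_zero, one_mul, mul_assoc]
    rw [h2, h1, ← h4]
    simp only [mul_assoc]

/-- the eight elements -/
def q8 (i j : G) (p : Bool × Fin 4) : G := (if p.1 then j else 1) * i ^ (p.2 : ℕ)

theorem q8_Qs (p : Bool × Fin 4) : Qs i j (q8 i j p) := by
  obtain ⟨b, a⟩ := p
  cases b
  · exact ⟨0, a, by simp [q8]⟩
  · exact ⟨1, a, by simp [q8]⟩

theorem Qs.q8 (h4 : i * (i * (i * i)) = 1) (hjj : j * j = i * i) {g : G} (hg : Qs i j g) : ∃ p, g = q8 i j p := by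
  obtain ⟨a, rfl | rfl⟩ := hg.red hjj
  · exact ⟨(false, ⟨a % 4, Nat.mod_lt _ (by norm_num)⟩), by
      simp [L34.q8, pow_eq_pow_mod a (i_pow_four h4)]⟩
  · exact ⟨(true, ⟨a % 4, Nat.mod_lt _ (by norm_num)⟩), by
      simp [L34.q8, pow_eq_pow_mod a (i_pow_four h4)]⟩

theorem q8_inj (h4 : i * (i * (i * i)) = 1) (hjj : j * j = i * i) (hji : j * (i * j) = i) (hz : i * i ≠ 1) :
    Function.Injective (q8 i j) := by
  have hne : ∀ a a' : ℕ, j * i ^ a ≠ i ^ a' := by
    intro a a' h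
    have h1 : Commute (j * i ^ a) i := by rw [h]; exact (Commute.refl i).pow_left a'
    have h2 : j * i = i * j := by
      have h3 : j * i ^ a * i = i * (j * i ^ a) := h1
      have h4' : j * i * i ^ a = i * j * i ^ a := by
        calc j * i * i ^ a = j * (i * i ^ a) := by rw [mul_assoc]
          _ = j * (i ^ a * i) := by rw [← pow_succ, ← pow_succ']
          _ = i * (j * i ^ a) := by rw [← mul_assoc, h3]
          _ = i * j * i ^ a := by rw [mul_assoc]
      exact mul_right_cancel h4'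
    rw [← h2, ← mul_assoc, hjj] at hji
    exact hz (mul_eq_right.1 hji)
  have : Fact (Nat.Prime 2) := ⟨Nat.prime_two⟩
  have ho : orderOf i = 2 ^ (1 + 1) := orderOf_eq_prime_pow (by rw [pow_one, pow_two]; exact hz) (i_pow_four h4)
  have hinj : ∀ a a' : Fin 4, i ^ (a : ℕ) = i ^ (a' : ℕ) → a = a' := by
    intro a a' h
    have h1 := pow_inj_mod.1 h
    rw [ho] at h1
    apply Fin.ext
    have := a.2
    have := a'.2
    omega
  rintro ⟨b, a⟩ ⟨b', a'⟩ h
  cases b <;> cases b'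
  · rw [hinj a a' (by simpa [q8] using h)]
  · exact absurd (show j * i ^ (a' : ℕ) = i ^ (a : ℕ) by simpa [q8] using h.symm) (hne _ _)
  · exact absurd (show j * i ^ (a : ℕ) = i ^ (a' : ℕ) by simpa [q8] using h) (hne _ _)
  · rw [hinj a a' (by simpa [q8] using h)]

variable [Finite G] {V : Type*} [AddCommGroup V] [Module (ZMod 2) V]

/-- **the sum over `R = Q₈ E` on the vectors fixed by `E`** -/
theorem av_eight (ρ : Representation (ZMod 2) G V) {R E : Subgroup G} (hER : E ≤ R) (hiR : i ∈ R) (hjR : j ∈ R)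
    (h4 : i * (i * (i * i)) = 1) (hjj : j * j = i * i) (hji : j * (i * j) = i) (hz : i * i ≠ 1)
    (hE3 : ∀ e ∈ E, e ^ 3 = 1) (hodd : Odd (Nat.card E)) (hn : ∀ r ∈ R, ∀ e ∈ E, r⁻¹ * e * r ∈ E)
    (hgen : R ≤ Subgroup.closure ((E : Set G) ∪ {i, j})) {u : V} (hu : u ∈ VE ρ E) :
    av ρ R u = (u + ρ i u + ρ (i * i) u + ρ (i * i * i) u) +
      ρ j (u + ρ i u + ρ (i * i) u + ρ (i * i * i) u) := by
  classical
  letI := Fintype.ofFinite G
  letI : Fintype R := Fintype.ofFinite _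
  letI : Fintype E := Fintype.ofFinite _
  have hQR : ∀ g, Qs i j g → g ∈ R := by
    rintro _ ⟨b, a, rfl⟩
    exact R.mul_mem (R.pow_mem hjR b) (R.pow_mem hiR a)
  have hQi : Qs i j i := ⟨0, 1, by simp⟩
  have hQj : Qs i j j := ⟨1, 0, by simp⟩
  have hQ1 : Qs i j (1 : G) := ⟨0, 0, by simp⟩
  have hQinv : ∀ g, Qs i j g → Qs i j g⁻¹ := by
    intro g hg
    have h1 : g * (g * (g * g)) = 1 := by
      rw [← hg.pow_four h4 hjj hji]
      simp only [pow_succ, pow_zero, one_mul, mul_assoc]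
    rw [inv_eq_of_mul_eq_one_right h1]
    exact hg.mul h4 hjj hji (hg.mul h4 hjj hji hg)
  -- every element of `R` is `q e`
  have hP : ∀ g ∈ R, ∃ q, Qs i j q ∧ ∃ e ∈ E, g = q * e := by
    intro g hg
    have hg2 := hgen hg
    have hstep : ∀ x, Qs i j x ∨ x ∈ E → ∀ y, (∃ q, Qs i j q ∧ ∃ e ∈ E, y = q * e) →
        ∃ q, Qs i j q ∧ ∃ e ∈ E, x * y = q * e := by
      rintro x (hx | hx) y ⟨q, hq, e, he, rfl⟩
      · exact ⟨x * q, hx.mul h4 hjj hji hq, e, he, by rw [mul_assoc]⟩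
      · exact ⟨q, hq, q⁻¹ * x * q * e, E.mul_mem (hn q (hQR q hq) x hx) he, by group⟩
    refine Subgroup.closure_induction_left (p := fun g _ => ∃ q, Qs i j q ∧ ∃ e ∈ E, g = q * e) ?_ ?_ ?_ hg2
    · exact ⟨1, hQ1, 1, E.one_mem, by rw [mul_one]⟩
    · rintro x (hx | rfl | rfl) y _ hy
      · exact hstep x (Or.inr hx) y hy
      · exact hstep x (Or.inl hQi) y hy
      · exact hstep x (Or.inl hQj) y hy
    · rintro x (hx | rfl | rfl) y _ hy
      · exact hstep _ (Or.inr (E.inv_mem hx)) y hy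
      · exact hstep _ (Or.inl (hQinv _ hQi)) y hy
      · exact hstep _ (Or.inl (hQinv _ hQj)) y hy
  let f : (Bool × Fin 4) × E → R := fun x => ⟨q8 i j x.1 * (x.2 : G), R.mul_mem (hQR _ (q8_Qs _)) (hER x.2.2)⟩
  have hf : Function.Bijective f := by
    constructor
    · rintro ⟨p, e⟩ ⟨p', e'⟩ h
      have h1 : q8 i j p * (e : G) = q8 i j p' * (e' : G) := congrArg Subtype.val h
      have h2 : (q8 i j p')⁻¹ * q8 i j p = (e' : G) * (e : G)⁻¹ := by
        rw [eq_mul_inv_iff_mul_eq, mul_assoc, h1, inv_mul_cancel_left]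
      have h3 : Qs i j ((q8 i j p')⁻¹ * q8 i j p) := (hQinv _ (q8_Qs p')).mul h4 hjj hji (q8_Qs p)
      have h5 := h3.pow_four h4 hjj hji
      have h6 : ((q8 i j p')⁻¹ * q8 i j p) ^ 3 = 1 := by
        rw [h2]
        exact hE3 _ (E.mul_mem e'.2 (E.inv_mem e.2))
      rw [pow_succ, h6, one_mul] at h5
      have h7 : q8 i j p = q8 i j p' := (inv_mul_eq_one.1 h5).symm
      have h8 := q8_inj h4 hjj hji hz h7
      subst h8
      have h9 := mul_left_cancel h1
      exact congrArg _ (Subtype.ext h9)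
    · rintro ⟨g, hg⟩
      obtain ⟨q, hq, e, he, rfl⟩ := hP g hg
      obtain ⟨p, rfl⟩ := hq.q8 h4 hjj
      exact ⟨(p, ⟨e, he⟩), rfl⟩
  have h1 : av ρ R u = ∑ p : Bool × Fin 4, ρ (q8 i j p) u := by
    rw [av_apply, ← Fintype.sum_bijective f hf (fun x => ρ (q8 i j x.1 * (x.2 : G)) u) _ (fun x => rfl),
      Fintype.sum_prod_type]
    refine Finset.sum_congr rfl fun p _ => ?_
    have h2 : ∀ e ∈ (Finset.univ : Finset E), ρ (q8 i j p * (e : G)) u = ρ (q8 i j p) u := by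
      intro e _
      rw [map_mul, Module.End.mul_apply, mem_VE.1 hu e e.2]
    rw [Finset.sum_congr rfl h2, Finset.sum_const, Finset.card_univ, ← Nat.card_eq_fintype_card, odd_smul hodd]
  have e1 : ∀ a : Fin 4, q8 i j (false, a) = i ^ (a : ℕ) := fun a => by simp [q8]
  have e2 : ∀ a : Fin 4, q8 i j (true, a) = j * i ^ (a : ℕ) := fun a => by simp [q8]
  have hr : ∀ g : G, ρ (j * g) u = ρ j (ρ g u) := fun g => by rw [map_mul]; rfl
  have p0 : ρ (i ^ ((0 : Fin 4) : ℕ)) u = u := by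
    show ρ (i ^ 0) u = u
    rw [pow_zero, map_one]; rfl
  have p1 : i ^ ((1 : Fin 4) : ℕ) = i := pow_one i
  have p2 : i ^ ((2 : Fin 4) : ℕ) = i * i := pow_two i
  have p3 : i ^ ((3 : Fin 4) : ℕ) = i * i * i := by
    show i ^ 3 = _
    simp only [pow_succ, pow_zero, one_mul]
  rw [h1, Fintype.sum_prod_type, Fintype.sum_bool, Fin.sum_univ_four, Fin.sum_univ_four]
  rw [e1, e1, e1, e1, e2, e2, e2, e2, hr, hr, hr, hr, p0, p1, p2, p3, map_add, map_add, map_add, add_comm]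

end gen

end Cfsg.Agent.H280.L34
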